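import Groth.Agent.Dual.H307.Main
import Groth.Agent.Dual.H322.BcUniv

/-!
# Base change for right adjoints of `Rf_*` on `D_QCoh`, arbitrary base change

* `isIso_beta`: the canonical base change map is an isomorphism if `f` or `g` is flat;
* `univ_bc`: `Univ f K L → Univ f' (Lg^* K) (Lg'^* L)` if `Rf_*` preserves perfect objects and `f` or `g` is flat;
* `exists_bcMap`: the form of S3603.
-/

set_option autoImplicit false

open CategoryTheory Limits AlgebraicGeometry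

universe u

attribute [local instance] HasDerivedCategory.standard

namespace Groth.Agent.Dual.H307.BcGen

open Groth.Agent.PerfB.BCTot Groth.Agent.PerfB.BCTot.Tot Groth.Agent.PerfB.BCSch Groth.Agent.PerfB.BCShift
  Groth.Agent.Dual.H307.MonSquare Groth.Agent.Dual.H307.Main Groth.Agent.Ega1.ADualUniv
  Groth.Agent.Dual.H306 Groth.Agent.Dual.H322.BcSch Groth.Agent.Dual.H322.BcUniv

section Beta

variable {X Y X' Y' : Scheme.{u}} {f : X ⟶ Y} {g : Y' ⟶ Y} {f' : X' ⟶ Y'} {g' : X' ⟶ X}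
  [DCoh.HasRpush f] [DCoh.HasRpush f'] [DCoh.HasLpull f] [DCoh.HasLpull f'] [DCoh.HasLpull g] [DCoh.HasLpull g']

theorem isIso_beta_of_bc (w : g' ≫ f = f' ≫ g) (E : DCoh.D X)
    (h : BC (cartLift (P := dPull.{u}) ⟨X, E⟩ g') f f' g) : IsIso ((beta w).app E) := by
  have := Groth.Agent.Dcoh.DerSch.hasRpush g
  have := Groth.Agent.Dcoh.DerSch.hasRpush g'
  rw [beta_app]
  exact BCPushQ.isIso_bcCan w E h

/-- The canonical base change map is an isomorphism if `f` or `g` is flat. -/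
theorem isIso_beta [QuasiCompact f] [QuasiSeparated f] (hflat : Flat f ∨ Flat g) (sq : IsPullback g' f' f g)
    (E : DCoh.D X) (hE : DCoh.IsQCohD E) : IsIso ((beta sq.w).app E) :=
  isIso_beta_of_bc sq.w E (BCLeft.bc_tor hflat sq E hE)

end Beta

section Square

variable {X Y X' Y' : Scheme.{u}} {f : X ⟶ Y} {g : Y' ⟶ Y} {f' : X' ⟶ Y'} {g' : X' ⟶ X}
  [CompactSpace X] [QuasiSeparatedSpace X] [CompactSpace Y] [QuasiSeparatedSpace Y]
  [CompactSpace X'] [QuasiSeparatedSpace X'] [CompactSpace Y'] [QuasiSeparatedSpace Y']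
  [DCoh.HasRpush f] [DCoh.HasRpush f'] [DCoh.HasLpull g] [DCoh.HasLpull g']

/-- **Base change of universal pairs**, without explicit traces. -/
theorem univ_bc (hflat : Flat f ∨ Flat g) (hsq : IsPullback g' f' f g)
    (hperf : ∀ P : DCoh.D X, DCoh.IsPerfect P → DCoh.IsPerfect ((DCoh.Rpush f).obj P))
    {K : DCoh.D Y} (hK : DCoh.IsQCohD K) {L : DCoh.D X} (h : Univ f K L) :
    Univ f' ((DCoh.Lpull g).obj K) ((DCoh.Lpull g').obj L) := by
  have := hasLpull f
  have := hasLpull f'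
  obtain ⟨τ, h⟩ := h
  have hbc : ∀ E : DCoh.D X, DCoh.IsQCohD E → IsIso ((beta hsq.w).app E) :=
    fun E hE => isIso_beta hflat hsq E hE
  have := hbc L h.qcoh
  exact ⟨_, isUniv_bc hsq hperf hbc hK h (inv ((beta hsq.w).app L) ≫ (DCoh.Lpull g).map τ) (by simp)⟩

variable [DCoh.HasRpush g] [DCoh.HasRpush g']
variable {hf : DCoh.RpushPreservesQCoh f} {hf' : DCoh.RpushPreservesQCoh f'}
variable {hg : DCoh.RpushPreservesQCoh g} {hg' : DCoh.RpushPreservesQCoh g'}
variable {hLg : Dual3.LpullPreservesQCoh g} {hLg' : Dual3.LpullPreservesQCoh g'}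
variable {a : DCoh.DQCoh Y ⥤ DCoh.DQCoh X} {a' : DCoh.DQCoh Y' ⥤ DCoh.DQCoh X'}

/-- **Base change for right adjoints of direct images.** -/
theorem exists_bcMap (hflat : Flat f ∨ Flat g) (hsq : IsPullback g' f' f g)
    (hperf : ∀ P : DCoh.D X, DCoh.IsPerfect P → DCoh.IsPerfect ((DCoh.Rpush f).obj P))
    (adj : DCoh.RpushQ f hf ⊣ a) (adj' : DCoh.RpushQ f' hf' ⊣ a')
    (adjg : Dual3.LpullQ g hLg ⊣ DCoh.RpushQ g hg) (adjg' : Dual3.LpullQ g' hLg' ⊣ DCoh.RpushQ g' hg') :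
    ∃ (e : DCoh.RpushQ g' hg' ⋙ DCoh.RpushQ f hf ≅ DCoh.RpushQ f' hf' ⋙ DCoh.RpushQ g hg)
      (hξ : ∀ M : DCoh.DQCoh Y', IsIso (Dual3.xi adj adj' e M)),
      ∀ K : DCoh.DQCoh Y, IsIso (Dual3.bcMap adj adj' e adjg adjg' K (hξ _)) := by
  have := hasLpull f
  have := hasLpull f'
  have hbc : ∀ E : DCoh.D X, DCoh.IsQCohD E → IsIso ((beta hsq.w).app E) :=
    fun E hE => isIso_beta hflat hsq E hE
  obtain ⟨e, he⟩ := BCPushQ.exists_bcPush_eq_bcCan (hf := hf) (hf' := hf') hsq.w adjg adjg'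
  have he' : ∀ K : DCoh.DQCoh X, IsIso (Dual3.bcPush e adjg adjg' K) := by
    intro K
    rw [← ObjectProperty.isIso_hom_iff, he K, ← beta_app]
    exact hbc _ K.property
  obtain ⟨h1, h2⟩ := bc_summary adj adj' e adjg adjg' he'
  refine ⟨e, h1, fun K => ?_⟩
  rw [h2 K (h1 _), isIso_bc_iff_isUniv]
  refine isUniv_bc hsq hperf hbc K.property (isUniv_of_adj (h := hf) adj K) _ ?_
  have h3 : (beta hsq.w).app (a.obj K).obj = ((bcPushIso e adjg adjg' he').hom.app (a.obj K)).hom := by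
    rw [bcPushIso_hom_app, he, beta_app]
  rw [h3, traceBC]
  have h4 : ((bcPushIso e adjg adjg' he').hom.app (a.obj K)).hom ≫
      ((bcPushIso e adjg adjg' he').inv.app (a.obj K)).hom = 𝟙 _ :=
    congrArg (fun t => t.hom) ((bcPushIso e adjg adjg' he').hom_inv_id_app (a.obj K))
  exact (Category.assoc _ _ _).symm.trans ((congrArg (fun t => t ≫ _) h4).trans (Category.id_comp _))

end Square

end Groth.Agent.Dual.H307.BcGen
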