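import Groth.Agent.Dual.H307.MonComp
import Groth.Agent.Dual.H306.BCPushQ

/-!
# The base change transformation `Lg^* Rf_* ⟶ Rf'_* Lg'^*` is monoidal
-/

set_option autoImplicit false

open CategoryTheory Limits MonoidalCategory AlgebraicGeometry

universe v₁ v₂ v₃ v₄ u₁ u₂ u₃ u₄ u

namespace Groth.Agent.Dual.H307.MonSquare

open Groth.Agent.Dcoh Groth.Agent.PerfB.BCTot Groth.Agent.PerfB.BCSch Groth.Agent.PerfB.BCShift
  Groth.Agent.Dual.H307.MonNat Groth.Agent.Dual.H307.MonComp Groth.Agent.Dcoh.BCCanon300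
  Groth.Agent.Dcoh.DerSch Groth.Agent.Dual.H306
open scoped Groth.Agent.Dcoh.MonCat Groth.Agent.Dcoh.ModD Groth.Agent.Dcoh.MonPull
  Groth.Agent.Dual.H307.MonComp

section Generic

variable {C : Type u₁} [Category.{v₁} C] {D : Type u₂} [Category.{v₂} D]
  {C' : Type u₃} [Category.{v₃} C'] {D' : Type u₄} [Category.{v₄} D']
  {Rf : C ⥤ D} {Rf' : C' ⥤ D'} {Rg : D' ⥤ D} {Rg' : C' ⥤ C} {Lg : D ⥤ D'} {Lg' : C ⥤ C'}
  {Lf : D ⥤ C} {Lf' : D' ⥤ C'} (adjf : Lf ⊣ Rf) (adjf' : Lf' ⊣ Rf') (adjg : Lg ⊣ Rg)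
  (adjg' : Lg' ⊣ Rg') (c : Lg ⋙ Lf' ≅ Lf ⋙ Lg')

lemma mate_app_eq_bcP (K : C) : (mate adjf adjf' c.hom).app K =
    Formal.bcP adjg adjg' (Formal.eOf adjf adjf' adjg adjg' c) K :=
  Formal.IsBC.unique adjf adjf' c (map_mate_app_counit adjf adjf' c.hom K)
    (Formal.isBC_bcP adjf adjf' adjg adjg' c K)

end Generic

attribute [local instance] HasDerivedCategory.standard

section

variable {X Y Z : Scheme.{u}} (f : X ⟶ Y) (g : Y ⟶ Z)

section

variable [DCoh.HasLpull f] [DCoh.HasLpull g] [DCoh.HasLpull (f ≫ g)]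

/-- The composition isomorphism. -/
noncomputable def dCompIso : DCoh.Lpull g ⋙ DCoh.Lpull f ≅ DCoh.Lpull (f ≫ g) := (dPull.{u}).compI f g

lemma dCompIso_hom : (dCompIso f g).hom = dComp f g := rfl

instance isMonoidal_dCompIso_hom : NatTrans.IsMonoidal (dCompIso f g).hom := isMonoidal_dComp f g

instance isMonoidal_dCompIso_inv : NatTrans.IsMonoidal (dCompIso f g).inv := inferInstance

end

variable {f} in
/-- Transport along an equality of morphisms. -/
noncomputable def eqT {f' : X ⟶ Y} (h : f = f') [DCoh.HasLpull f] [DCoh.HasLpull f'] :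
    DCoh.Lpull f ≅ DCoh.Lpull f' :=
  eqToIso (by subst h; rfl)

instance isMonoidal_eqT {f' : X ⟶ Y} (h : f = f') [DCoh.HasLpull f] [DCoh.HasLpull f'] :
    NatTrans.IsMonoidal (eqT h).hom := by
  subst h
  exact inferInstanceAs (NatTrans.IsMonoidal (𝟙 (DCoh.Lpull f)))

/-- The lax monoidal structure on `Rf_*`. -/
@[instance_reducible]
noncomputable def laxR [DCoh.HasLpull f] [DCoh.HasRpush f] : (DCoh.Rpush f).LaxMonoidal :=
  (lAdj f).rightAdjointLaxMonoidal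

attribute [scoped instance] laxR

instance isMonoidal_lAdj [DCoh.HasLpull f] [DCoh.HasRpush f] : (lAdj f).IsMonoidal := inferInstance

end

section Square

variable {X Y X' Y' : Scheme.{u}} {f : X ⟶ Y} {g : Y' ⟶ Y} {g' : X' ⟶ X} {f' : X' ⟶ Y'}
  (w : g' ≫ f = f' ≫ g)
variable [DCoh.HasLpull f] [DCoh.HasLpull f'] [DCoh.HasLpull g] [DCoh.HasLpull g']

lemma cD_hom : (BCPushQ.cD w).hom =
    letI := hasLpull (f' ≫ g)
    letI := hasLpull (g' ≫ f)
    (dCompIso f' g).hom ≫ (eqT w.symm).hom ≫ (dCompIso g' f).inv := rfl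

instance isMonoidal_cD : NatTrans.IsMonoidal (BCPushQ.cD w).hom := by
  letI := hasLpull (f' ≫ g)
  letI := hasLpull (g' ≫ f)
  have h1 : NatTrans.IsMonoidal (dCompIso f' g).hom := isMonoidal_dCompIso_hom f' g
  have h2 : NatTrans.IsMonoidal (eqT w.symm).hom := isMonoidal_eqT _ w.symm
  have h3 : NatTrans.IsMonoidal (dCompIso g' f).inv := isMonoidal_dCompIso_inv g' f
  have h4 : NatTrans.IsMonoidal ((eqT w.symm).hom ≫ (dCompIso g' f).inv) := NatTrans.IsMonoidal.comp _ _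
  rw [cD_hom]
  exact NatTrans.IsMonoidal.comp (dCompIso f' g).hom ((eqT w.symm).hom ≫ (dCompIso g' f).inv)

variable [DCoh.HasRpush f] [DCoh.HasRpush f']

/-- The base change transformation. -/
noncomputable def beta : DCoh.Rpush f ⋙ DCoh.Lpull g ⟶ DCoh.Lpull g' ⋙ DCoh.Rpush f' :=
  mate (lAdj f) (lAdj f') (BCPushQ.cD w).hom

instance isMonoidal_beta : NatTrans.IsMonoidal (beta w) :=
  isMonoidal_mate (lAdj f) (lAdj f') (BCPushQ.cD w).hom

lemma beta_app [DCoh.HasRpush g] [DCoh.HasRpush g'] (K : DCoh.D X) :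
    (beta w).app K = BCPushQ.bcCan w K :=
  mate_app_eq_bcP (lAdj f) (lAdj f') (lAdj g) (lAdj g') (BCPushQ.cD w) K

end Square

end Groth.Agent.Dual.H307.MonSquare
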