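import Groth.Agent.Dual.H307.MonBC2
import Groth.Agent.Dual.H307.MonSquare
import Groth.Agent.Dual.H308.GenProd
import Groth.Agent.Dual.H355.GenUniv
import Groth.Agent.Dual.H379.TwistMain

/-!
# Base change for right adjoints of `Rf_*`, arbitrary base change

For a cartesian square of quasi-compact quasi-separated schemes such that `Rf_*` preserves perfect objects and the
base change maps `beta : Lg^* Rf_* E ⟶ Rf'_* Lg'^* E` are isomorphisms on `D_QCoh(O_X)`: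

* `isUniv_bc`: if `(L, τ)` is universal for `(f, K)`, then `(Lg'^* L, τ')` is universal for `(f', Lg^* K)`, where
  `τ' : Rf'_* Lg'^* L ≅ Lg^* Rf_* L ⟶ Lg^* K`.
-/

set_option autoImplicit false

open CategoryTheory Limits MonoidalCategory AlgebraicGeometry

universe u

attribute [local instance] HasDerivedCategory.standard

namespace Groth.Agent.Dual.H307.Main

open Groth.Agent.Dcoh Groth.Agent.PerfB.BCShift
  Groth.Agent.Dual.H307.MonNat Groth.Agent.Dual.H307.MonComp Groth.Agent.Dual.H307.MonSquare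
  Groth.Agent.Dual.H307.MonBC Groth.Agent.Ega1.ADualUniv Groth.Agent.Dual.H308
open scoped Groth.Agent.Dcoh.MonCat Groth.Agent.Dcoh.ModD Groth.Agent.Dcoh.MonPull
  Groth.Agent.Dual.H307.MonComp Groth.Agent.Dual.H307.MonSquare

section Shift

/-- Shifting a tensor product in the left variable. -/
theorem nonempty_tensor_shift {X : Scheme.{u}} (A B : DCoh.D X) (n : ℤ) :
    Nonempty ((A ⊗ B)⟦n⟧ ≅ A⟦n⟧ ⊗ B) := by
  obtain ⟨_, _⟩ := Groth.Agent.Dual.H379.TwistMain.isTriang_tensorRight B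
  exact ⟨(((tensorRight B).commShiftIso n).app A).symm⟩

theorem nonempty_lpull_shift {X Y : Scheme.{u}} (f : X ⟶ Y) [DCoh.HasLpull f] (A : DCoh.D Y) (n : ℤ) :
    Nonempty (((DCoh.Lpull f).obj A)⟦n⟧ ≅ (DCoh.Lpull f).obj (A⟦n⟧)) := by
  obtain ⟨_, _⟩ := Groth.Agent.PerfC.ProjAbs291.isTriang_Lpull f
  exact ⟨(((DCoh.Lpull f).commShiftIso n).app A).symm⟩

end Shift

section Dual

variable {X Y : Scheme.{u}} [CompactSpace X] [QuasiSeparatedSpace X] [CompactSpace Y] [QuasiSeparatedSpace Y]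
  (f : X ⟶ Y) [DCoh.HasRpush f] [DCoh.HasLpull f]

/-- `Rf_*(L ⊗ Mᵛ) ≅ K ⊗ (Rf_* M)ᵛ` for a universal pair `(L, τ)`, `M` perfect. -/
theorem isIso_dualMap {K : DCoh.D Y} (hK : DCoh.IsQCohD K) {L : DCoh.D X} {τ : (DCoh.Rpush f).obj L ⟶ K}
    (h : IsUniv f K L τ) (M Md : DCoh.D X) (hM : DCoh.IsPerfect M) (hMd : DCoh.IsPerfect Md) [ExactPairing M Md]
    (FMd : DCoh.D Y) (hFMd : DCoh.IsPerfect FMd) [ExactPairing ((DCoh.Rpush f).obj M) FMd] :
    IsIso (dualMap (DCoh.Rpush f) M Md FMd τ) := by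
  have hq : ∀ {Z : Scheme.{u}} (P : DCoh.D Z), DCoh.IsPerfect P → DCoh.IsQCohD P :=
    fun P hP => PerfA.QCohD.isQCohD_of_isPerfect _ hP
  refine Groth.Agent.Dual.H355.GenUniv.isIso_of_generators DCoh.IsQCohD (fun P => DCoh.IsPerfect P)
    (fun P hP => PerfA.PerfLocal.isPerfect_shift hP (-1))
    (fun E hE hE' => GenProd.isZero_of_forall_perfect E hE hE')
    (S0998.result f _ (GenProd.isQCohD_tensor h.qcoh (hq _ hMd)))
    (GenProd.isQCohD_tensor hK (hq _ hFMd)) _ (fun Q hQ => ?_)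
  obtain ⟨Qd, hQd, ⟨hp⟩⟩ := PerfDual.exists_exactPairing Q hQ
  exact bijective_dualMap (lAdj f) M Md FMd τ Q Qd
    (h.bij _ (GenProd.isQCohD_tensor (S1054.result f _ (hq _ hQ)) (hq _ hM)))

end Dual

section Square

variable {X Y X' Y' : Scheme.{u}} {f : X ⟶ Y} {g : Y' ⟶ Y} {f' : X' ⟶ Y'} {g' : X' ⟶ X}
  [CompactSpace X] [QuasiSeparatedSpace X] [CompactSpace Y] [QuasiSeparatedSpace Y]
  [CompactSpace X'] [QuasiSeparatedSpace X'] [CompactSpace Y'] [QuasiSeparatedSpace Y']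
  [DCoh.HasRpush f] [DCoh.HasRpush f'] [DCoh.HasLpull f] [DCoh.HasLpull f'] [DCoh.HasLpull g] [DCoh.HasLpull g']

/-- The universal property tested on `Lf'^* Q ⊗ Lg'^* M`. -/
theorem bijective_tensor (w : g' ≫ f = f' ≫ g)
    (hperf : ∀ P : DCoh.D X, DCoh.IsPerfect P → DCoh.IsPerfect ((DCoh.Rpush f).obj P))
    (hbc : ∀ E : DCoh.D X, DCoh.IsQCohD E → IsIso ((beta w).app E))
    {K : DCoh.D Y} (hK : DCoh.IsQCohD K) {L : DCoh.D X} {τ : (DCoh.Rpush f).obj L ⟶ K} (h : IsUniv f K L τ)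
    (τ' : (DCoh.Rpush f').obj ((DCoh.Lpull g').obj L) ⟶ (DCoh.Lpull g).obj K)
    (hτ' : (beta w).app L ≫ τ' = (DCoh.Lpull g).map τ) (M : DCoh.D X) (hM : DCoh.IsPerfect M)
    (Q : DCoh.D Y') (hQ : DCoh.IsPerfect Q) :
    Function.Bijective (fun φ : (DCoh.Lpull f').obj Q ⊗ (DCoh.Lpull g').obj M ⟶ (DCoh.Lpull g').obj L =>
      (DCoh.Rpush f').map φ ≫ τ') := by
  have hq : ∀ {Z : Scheme.{u}} (P : DCoh.D Z), DCoh.IsPerfect P → DCoh.IsQCohD P :=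
    fun P hP => PerfA.QCohD.isQCohD_of_isPerfect _ hP
  obtain ⟨Md, hMd, ⟨hp⟩⟩ := PerfDual.exists_exactPairing M hM
  obtain ⟨FMd, hFMd, ⟨hp'⟩⟩ := PerfDual.exists_exactPairing ((DCoh.Rpush f).obj M) (hperf M hM)
  obtain ⟨Qd, hQd, ⟨hp''⟩⟩ := PerfDual.exists_exactPairing Q hQ
  exact bijective_bc_gen (lAdj f') (beta w) M Md FMd τ (isIso_dualMap f hK h M Md hM hMd FMd hFMd) Q Qd
    (hbc _ (GenProd.isQCohD_tensor h.qcoh (hq _ hMd))) (hbc _ (hq _ hM)) τ' hτ'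

/-- **Base change of universal pairs.** -/
theorem isUniv_bc (hsq : IsPullback g' f' f g)
    (hperf : ∀ P : DCoh.D X, DCoh.IsPerfect P → DCoh.IsPerfect ((DCoh.Rpush f).obj P))
    (hbc : ∀ E : DCoh.D X, DCoh.IsQCohD E → IsIso ((beta hsq.w).app E))
    {K : DCoh.D Y} (hK : DCoh.IsQCohD K) {L : DCoh.D X} {τ : (DCoh.Rpush f).obj L ⟶ K} (h : IsUniv f K L τ)
    (τ' : (DCoh.Rpush f').obj ((DCoh.Lpull g').obj L) ⟶ (DCoh.Lpull g).obj K)
    (hτ' : (beta hsq.w).app L ≫ τ' = (DCoh.Lpull g).map τ) :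
    IsUniv f' ((DCoh.Lpull g).obj K) ((DCoh.Lpull g').obj L) τ' := by
  have hq : ∀ {Z : Scheme.{u}} (P : DCoh.D Z), DCoh.IsPerfect P → DCoh.IsQCohD P :=
    fun P hP => PerfA.QCohD.isQCohD_of_isPerfect _ hP
  refine Groth.Agent.Dual.H355.GenUniv.isUniv_of_class f' (S1054.result g K hK) (S1054.result g' L h.qcoh) τ'
    (fun N => ∃ (P : DCoh.D X) (Q : DCoh.D Y'), DCoh.IsPerfect P ∧ DCoh.IsPerfect Q ∧
      Nonempty (N ≅ (DCoh.Lpull f').obj Q ⊗ (DCoh.Lpull g').obj P)) ?_ ?_ ?_ ?_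
  · rintro N ⟨P, Q, hP, hQ, ⟨e⟩⟩
    exact PerfA.QCohD.isQCohD_of_iso e.symm
      (GenProd.isQCohD_tensor (S1054.result f' Q (hq _ hQ)) (S1054.result g' P (hq _ hP)))
  · rintro N ⟨P, Q, hP, hQ, ⟨e⟩⟩
    obtain ⟨e1⟩ := nonempty_tensor_shift ((DCoh.Lpull f').obj Q) ((DCoh.Lpull g').obj P) (-1)
    obtain ⟨e2⟩ := nonempty_lpull_shift f' Q (-1)
    exact ⟨P, Q⟦(-1 : ℤ)⟧, hP, PerfA.PerfLocal.isPerfect_shift hQ (-1),
      ⟨(shiftFunctor (DCoh.D X') (-1)).mapIso e ≪≫ e1 ≪≫ whiskerRightIso e2 _⟩⟩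
  · intro M hM hM'
    exact GenProd.isZero_of_forall' hsq M hM fun P Q hP hQ φ => hM' _ ⟨P, Q, hP, hQ, ⟨Iso.refl _⟩⟩ φ
  · rintro N ⟨P, Q, hP, hQ, ⟨e⟩⟩
    have h1 := bijective_tensor hsq.w hperf hbc hK h τ' hτ' P hP Q hQ
    have h2 : Function.Bijective (fun g : N ⟶ (DCoh.Lpull g').obj L => e.inv ≫ g) :=
      (e.homFromEquiv (Z := (DCoh.Lpull g').obj L)).bijective
    have h3 : Function.Bijective (fun x : (DCoh.Rpush f').obj ((DCoh.Lpull f').obj Q ⊗ (DCoh.Lpull g').obj P) ⟶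
        (DCoh.Lpull g).obj K => (DCoh.Rpush f').map e.hom ≫ x) :=
      (((DCoh.Rpush f').mapIso e.symm).homFromEquiv (Z := (DCoh.Lpull g).obj K)).bijective
    convert h3.comp (h1.comp h2) using 1
    funext x
    simp

end Square

end Groth.Agent.Dual.H307.Main
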