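import Groth.Agent.Dual.H307.MonNat
import Groth.Agent.Dcoh.DualMap

/-!
# Base change of universal pairs in monoidal categories

All functors are (lax) monoidal.
* `UnivAt p Q`: for a pairing `p : N ⊗ M ⟶ L`, every `Q ⊗ M ⟶ L` comes from a unique `Q ⟶ N`;
* `univAt_iff`, `univAt_map`: for `M` dualizable, stability under monoidal functors;
* `isIso_proj`: the projection morphism `Q ⊗ F M ⟶ F (f^* Q ⊗ M)` is an isomorphism for `Q` dualizable;
* `univAt_push`: the pairing `F N ⊗ F M ⟶ F L ⟶ K`;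
* `bijective_bc`: base change of the universal property.
-/

set_option autoImplicit false

open CategoryTheory MonoidalCategory Functor.LaxMonoidal Functor.OplaxMonoidal Functor.Monoidal

namespace Groth.Agent.Dual.H307.MonBC

universe v₁ v₂ v₃ v₄ u₁ u₂ u₃ u₄

section Pairing

variable {C : Type u₁} [Category.{v₁} C] [MonoidalCategory C]

/-- Every `Q ⊗ M ⟶ L` comes from a unique `Q ⟶ N`. -/
def UnivAt {N M L : C} (p : N ⊗ M ⟶ L) (Q : C) : Prop :=
  Function.Bijective (fun x : Q ⟶ N => (x ▷ M) ≫ p)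

variable {M Md : C} [ExactPairing M Md] {N L : C} (p : N ⊗ M ⟶ L)

/-- The morphism `N ⟶ L ⊗ Md` attached to a pairing. -/
def sharp (M Md : C) [ExactPairing M Md] {N L : C} (p : N ⊗ M ⟶ L) : N ⟶ L ⊗ Md :=
  tensorRightHomEquiv N M Md L p

lemma symm_sharp : (tensorRightHomEquiv N M Md L).symm (sharp M Md p) = p :=
  Equiv.symm_apply_apply _ _

lemma symm_comp_sharp {Q : C} (x : Q ⟶ N) :
    (tensorRightHomEquiv Q M Md L).symm (x ≫ sharp M Md p) = (x ▷ M) ≫ p := by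
  rw [tensorRightHomEquiv_symm_naturality, symm_sharp]

lemma univAt_iff (M Md : C) [ExactPairing M Md] {N L : C} (p : N ⊗ M ⟶ L) (Q : C) :
    UnivAt p Q ↔ Function.Bijective (fun x : Q ⟶ N => x ≫ sharp M Md p) := by
  have h : (fun x : Q ⟶ N => (x ▷ M) ≫ p) =
      (tensorRightHomEquiv Q M Md L).symm ∘ (fun x : Q ⟶ N => x ≫ sharp M Md p) := by
    funext x
    exact (symm_comp_sharp p x).symm
  rw [UnivAt, h]
  exact Equiv.comp_bijective _ _

lemma univAt_of_isIso (M Md : C) [ExactPairing M Md] {N L : C} (p : N ⊗ M ⟶ L) [IsIso (sharp M Md p)]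
    (Q : C) : UnivAt p Q := by
  rw [univAt_iff M Md]
  exact (asIso (sharp M Md p)).homToEquiv.bijective

variable (M Md L) in
/-- The standard pairing. -/
def p₀ : (L ⊗ Md) ⊗ M ⟶ L := (tensorRightHomEquiv (L ⊗ Md) M Md L).symm (𝟙 _)

instance : IsIso (sharp M Md (p₀ M Md L)) := by
  rw [sharp, p₀, Equiv.apply_symm_apply]
  infer_instance

end Pairing

section Map

variable {C : Type u₁} [Category.{v₁} C] [MonoidalCategory C] {D : Type u₂} [Category.{v₂} D] [MonoidalCategory D]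
  (G : C ⥤ D) [G.Monoidal] (M Md : C) [ExactPairing M Md] {N L : C} (p : N ⊗ M ⟶ L)

/-- The image of a pairing under a monoidal functor. -/
def mapP (G : C ⥤ D) [G.LaxMonoidal] {M N L : C} (p : N ⊗ M ⟶ L) : G.obj N ⊗ G.obj M ⟶ G.obj L :=
  μ G N M ≫ G.map p

lemma sharp_mapP :
    letI := Groth.Agent.Dcoh.DualMap.mapPairing G M Md
    sharp (G.obj M) (G.obj Md) (mapP G p) = G.map (sharp M Md p) ≫ δ G L Md := by
  let _ := Groth.Agent.Dcoh.DualMap.mapPairing G M Md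
  have he : ε_ (G.obj M) (G.obj Md) = μ G Md M ≫ G.map (ε_ M Md) ≫ η G := rfl
  apply (tensorRightHomEquiv (G.obj N) (G.obj M) (G.obj Md) (G.obj L)).symm.injective
  rw [symm_sharp]
  have h2 : p = (sharp M Md p ▷ M) ≫ (α_ _ _ _).hom ≫ L ◁ ε_ M Md ≫ (ρ_ _).hom := (symm_sharp p).symm
  change mapP G p = (G.map (sharp M Md p) ≫ δ G L Md) ▷ G.obj M ≫ (α_ _ _ _).hom ≫
    G.obj L ◁ ε_ (G.obj M) (G.obj Md) ≫ (ρ_ _).hom
  rw [he, mapP]
  conv_lhs => rw [h2]
  simp only [Functor.map_comp, comp_whiskerRight, MonoidalCategory.whiskerLeft_comp, Category.assoc]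
  rw [← μ_natural_left_assoc, Functor.Monoidal.map_associator, Functor.Monoidal.map_whiskerLeft,
    Functor.Monoidal.map_rightUnitor]
  simp only [Category.assoc, Functor.Monoidal.μ_δ_assoc]

/-- Universal pairings with dualizable `M` are stable under monoidal functors. -/
theorem univAt_mapP [IsIso (sharp M Md p)] (Q : D) : UnivAt (mapP G p) Q := by
  let _ := Groth.Agent.Dcoh.DualMap.mapPairing G M Md
  have : IsIso (sharp (G.obj M) (G.obj Md) (mapP G p)) := by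
    rw [sharp_mapP]
    infer_instance
  exact univAt_of_isIso (G.obj M) (G.obj Md) (mapP G p) Q

end Map

section Push

variable {C : Type u₁} [Category.{v₁} C] [MonoidalCategory C] {D : Type u₂} [Category.{v₂} D] [MonoidalCategory D]
  {fs : D ⥤ C} {F : C ⥤ D} (adj : fs ⊣ F) [fs.Monoidal] [F.LaxMonoidal] [adj.IsMonoidal]

/-- The projection morphism. -/
def proj (Q : D) (M : C) : Q ⊗ F.obj M ⟶ F.obj (fs.obj Q ⊗ M) :=
  adj.unit.app Q ▷ F.obj M ≫ μ F (fs.obj Q) M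

omit [fs.Monoidal] [adj.IsMonoidal] in
lemma whiskerRight_comp_mapP {Q : D} {N M L : C} (p : N ⊗ M ⟶ L) (y : fs.obj Q ⟶ N) :
    (adj.homEquiv _ _ y ▷ F.obj M) ≫ mapP F p = proj adj Q M ≫ F.map ((y ▷ M) ≫ p) := by
  rw [Adjunction.homEquiv_unit, comp_whiskerRight, mapP, proj, Functor.map_comp, Category.assoc, Category.assoc,
    μ_natural_left_assoc]

lemma map_proj_counit (Q : D) (M : C) : fs.map (proj adj Q M) ≫ adj.counit.app (fs.obj Q ⊗ M) =
    δ fs Q (F.obj M) ≫ fs.obj Q ◁ adj.counit.app M := by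
  have h1 := δ_natural_left fs (adj.unit.app Q) (F.obj M)
  rw [proj, Functor.map_comp, Category.assoc, Adjunction.map_μ_comp_counit_app_tensor]
  dsimp only [Functor.id_obj, Functor.comp_obj] at h1 ⊢
  rw [← reassoc_of% h1, MonoidalCategory.tensorHom_def, ← comp_whiskerRight_assoc]
  erw [adj.left_triangle_components]
  rw [id_whiskerRight, Category.id_comp]

/-- The projection morphism is an isomorphism for `Q` dualizable. -/
theorem isIso_proj (Q Qd : D) [ExactPairing Q Qd] (M : C) : IsIso (proj adj Q M) := by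
  let _ := Groth.Agent.Dcoh.DualMap.mapPairing fs Q Qd
  have he : ε_ (fs.obj Q) (fs.obj Qd) = μ fs Qd Q ≫ fs.map (ε_ Q Qd) ≫ η fs := rfl
  -- the chain of bijections
  have key : ∀ (Z : D) (w : Z ⟶ Q ⊗ F.obj M),
      (tensorLeftHomEquiv (fs.obj Z) (fs.obj Q) (fs.obj Qd) M).symm ((adj.homEquiv _ _).symm (w ≫ proj adj Q M)) =
        μ fs Qd Z ≫ (adj.homEquiv _ _).symm ((tensorLeftHomEquiv Z Q Qd (F.obj M)).symm w) := by
    intro Z w
    rw [Adjunction.homEquiv_counit, Adjunction.homEquiv_counit, Functor.map_comp, Category.assoc,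
      map_proj_counit]
    change fs.obj Qd ◁ (fs.map w ≫ δ fs Q (F.obj M) ≫ fs.obj Q ◁ adj.counit.app M) ≫
      (α_ _ _ _).inv ≫ ε_ (fs.obj Q) (fs.obj Qd) ▷ M ≫ (λ_ _).hom =
        μ fs Qd Z ≫ fs.map (Qd ◁ w ≫ (α_ _ _ _).inv ≫ ε_ Q Qd ▷ F.obj M ≫ (λ_ _).hom) ≫ adj.counit.app M
    rw [he]
    simp only [Functor.map_comp, comp_whiskerRight, MonoidalCategory.whiskerLeft_comp, Category.assoc]
    rw [← μ_natural_right_assoc, Functor.Monoidal.map_associator_inv, Functor.Monoidal.map_whiskerRight,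
      Functor.Monoidal.map_leftUnitor]
    simp only [Category.assoc, Functor.Monoidal.μ_δ_assoc]
    have h2 := leftUnitor_naturality (adj.counit.app M)
    have h3 := whisker_exchange (η fs) (adj.counit.app M)
    have h4 := whisker_exchange (fs.map (ε_ Q Qd)) (adj.counit.app M)
    have h5 := whisker_exchange (μ fs Qd Q) (adj.counit.app M)
    dsimp only [Functor.id_obj, Functor.comp_obj] at h2 h3 h4 h5 ⊢
    rw [← h2, ← reassoc_of% h3, ← reassoc_of% h4, ← reassoc_of% h5]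
    rw [MonoidalCategory.tensor_whiskerLeft]
    simp only [Category.assoc, Iso.inv_hom_id_assoc]
  have hbij : ∀ Z : D, Function.Bijective (fun w : Z ⟶ Q ⊗ F.obj M => w ≫ proj adj Q M) := by
    intro Z
    have h1 : (fun w : Z ⟶ Q ⊗ F.obj M => w ≫ proj adj Q M) =
        (adj.homEquiv _ _) ∘ (tensorLeftHomEquiv (fs.obj Z) (fs.obj Q) (fs.obj Qd) M) ∘
          (fun t => μ fs Qd Z ≫ t) ∘ (adj.homEquiv _ _).symm ∘ (tensorLeftHomEquiv Z Q Qd (F.obj M)).symm := by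
      funext w
      simp only [Function.comp_apply]
      rw [← key Z w, Equiv.apply_symm_apply, Equiv.apply_symm_apply]
    rw [h1]
    refine (Equiv.bijective _).comp ((Equiv.bijective _).comp (Function.Bijective.comp ?_
      ((Equiv.bijective _).comp (Equiv.bijective _))))
    exact ((μIso fs Qd Z).symm.homFromEquiv).bijective
  obtain ⟨g, hg⟩ := (hbij (F.obj (fs.obj Q ⊗ M))).2 (𝟙 _)
  refine ⟨g, (hbij _).1 ?_, hg⟩
  dsimp only at hg ⊢
  rw [Category.assoc, hg, Category.comp_id, Category.id_comp]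

omit [fs.Monoidal] [adj.IsMonoidal] in
/-- The pairing `F N ⊗ F M ⟶ F L ⟶ K` is universal at `Q`. -/
theorem univAt_push {N M L : C} (p : N ⊗ M ⟶ L) {K : D} (τ : F.obj L ⟶ K) (Q : D)
    (hp : UnivAt p (fs.obj Q)) (hQ : IsIso (proj adj Q M))
    (hτ : Function.Bijective (fun φ : fs.obj Q ⊗ M ⟶ L => F.map φ ≫ τ)) :
    UnivAt (mapP F p ≫ τ) Q := by
  have h1 : (fun x : Q ⟶ F.obj N => (x ▷ F.obj M) ≫ mapP F p ≫ τ) =
      (fun t => proj adj Q M ≫ t) ∘ (fun φ : fs.obj Q ⊗ M ⟶ L => F.map φ ≫ τ) ∘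
        (fun y : fs.obj Q ⟶ N => (y ▷ M) ≫ p) ∘ (adj.homEquiv _ _).symm := by
    funext x
    obtain ⟨y, rfl⟩ := (adj.homEquiv _ _).surjective x
    simp only [Function.comp_apply, Equiv.symm_apply_apply]
    rw [← Category.assoc, whiskerRight_comp_mapP, Category.assoc]
  rw [UnivAt, h1]
  exact ((asIso (proj adj Q M)).symm.homFromEquiv).bijective.comp (hτ.comp (hp.comp (Equiv.bijective _)))

end Push

section Main

lemma aux {C : Type u₁} [Category.{v₁} C] [MonoidalCategory C] {Q A B E A' B' : C} (u : Q ⟶ A) (a : A ⟶ B)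
    (χ : Q ⟶ E) (s : E ⟶ B) (t : A' ⟶ B') (h : u ≫ a = χ ≫ s) :
    (u ⊗ₘ t) ≫ a ▷ B' = χ ▷ A' ≫ (s ⊗ₘ t) := by
  rw [MonoidalCategory.tensorHom_def, MonoidalCategory.tensorHom_def, Category.assoc, whisker_exchange,
    ← comp_whiskerRight_assoc, ← comp_whiskerRight_assoc, h]

variable {C : Type u₁} [Category.{v₁} C] [MonoidalCategory C] {D : Type u₂} [Category.{v₂} D] [MonoidalCategory D]
  {C' : Type u₃} [Category.{v₃} C'] [MonoidalCategory C'] {D' : Type u₄} [Category.{v₄} D'] [MonoidalCategory D']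
  {F : C ⥤ D} {F' : C' ⥤ D'} [F.LaxMonoidal] [F'.LaxMonoidal] {gs : D ⥤ D'} {gs' : C ⥤ C'}
  [gs.LaxMonoidal] [gs'.LaxMonoidal] (σ : F ⋙ gs ⟶ gs' ⋙ F') [hσ : NatTrans.IsMonoidal σ]

include hσ in
lemma core_comm {N M L : C} (p : N ⊗ M ⟶ L) {Q' : D'} {T' : C'} (u : Q' ⟶ F'.obj T') (ψ : T' ⟶ gs'.obj N)
    (χ : Q' ⟶ gs.obj (F.obj N)) (h : u ≫ F'.map ψ = χ ≫ σ.app N) :
    (u ⊗ₘ σ.app M) ≫ μ F' T' (gs'.obj M) ≫ F'.map ((ψ ▷ gs'.obj M) ≫ mapP gs' p) =
      (χ ▷ gs.obj (F.obj M)) ≫ mapP gs (mapP F p) ≫ σ.app L := by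
  have h1 := hσ.tensor N M
  have h2 := σ.naturality p
  rw [Functor.LaxMonoidal.comp_μ, Functor.LaxMonoidal.comp_μ, Category.assoc] at h1
  simp only [Functor.comp_map, Functor.comp_obj] at h1 h2
  rw [mapP, mapP, mapP, Functor.map_comp, Functor.map_comp, Functor.map_comp, Category.assoc, Category.assoc,
    h2, reassoc_of% h1, ← μ_natural_left_assoc]
  have h3 : (u ⊗ₘ σ.app M) ≫ F'.map ψ ▷ F'.obj (gs'.obj M) =
      χ ▷ gs.obj (F.obj M) ≫ (σ.app N ⊗ₘ σ.app M) := aux u (F'.map ψ) χ (σ.app N) (σ.app M) h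
  rw [reassoc_of% h3]

include hσ in
/-- Base change of the universal property. -/
theorem bijective_bc {N M L : C} (p : N ⊗ M ⟶ L) {K : D} (τ : F.obj L ⟶ K) {Q' : D'} {T' : C'}
    (u : Q' ⟶ F'.obj T') (τ' : F'.obj (gs'.obj L) ⟶ gs.obj K) (hτ' : σ.app L ≫ τ' = gs.map τ)
    (h₁ : UnivAt (mapP gs' p) T')
    (hu : Function.Bijective (fun ψ : T' ⟶ gs'.obj N => u ≫ F'.map ψ)) (hN : IsIso (σ.app N))
    (h₃ : UnivAt (mapP gs (mapP F p ≫ τ)) Q')
    (h₄ : IsIso ((u ⊗ₘ σ.app M) ≫ μ F' T' (gs'.obj M))) :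
    Function.Bijective (fun φ : T' ⊗ gs'.obj M ⟶ gs'.obj L => F'.map φ ≫ τ') := by
  -- `φ ↦ π ≫ F'.map φ ≫ τ'`
  have h5 : Function.Bijective (fun φ : T' ⊗ gs'.obj M ⟶ gs'.obj L =>
      ((u ⊗ₘ σ.app M) ≫ μ F' T' (gs'.obj M)) ≫ F'.map φ ≫ τ') := by
    have h6 : Function.Bijective ((fun φ : T' ⊗ gs'.obj M ⟶ gs'.obj L =>
      ((u ⊗ₘ σ.app M) ≫ μ F' T' (gs'.obj M)) ≫ F'.map φ ≫ τ') ∘
        (fun ψ : T' ⟶ gs'.obj N => (ψ ▷ gs'.obj M) ≫ mapP gs' p)) := by
      have h7 : ((fun φ : T' ⊗ gs'.obj M ⟶ gs'.obj L =>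
        ((u ⊗ₘ σ.app M) ≫ μ F' T' (gs'.obj M)) ≫ F'.map φ ≫ τ') ∘
        (fun ψ : T' ⟶ gs'.obj N => (ψ ▷ gs'.obj M) ≫ mapP gs' p)) =
          (fun χ : Q' ⟶ gs.obj (F.obj N) => (χ ▷ gs.obj (F.obj M)) ≫ mapP gs (mapP F p ≫ τ)) ∘
            (fun t => t ≫ inv (σ.app N)) ∘ (fun ψ : T' ⟶ gs'.obj N => u ≫ F'.map ψ) := by
        funext ψ
        simp only [Function.comp_apply, Category.assoc]
        have h8 := core_comm σ p u ψ (u ≫ F'.map ψ ≫ inv (σ.app N)) (by simp)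
        have h9 : mapP gs (mapP F p ≫ τ) = mapP gs (mapP F p) ≫ σ.app L ≫ τ' := by
          rw [hτ']
          simp [mapP]
        have h10 := congrArg (· ≫ τ') h8
        simp only [Category.assoc] at h10
        rw [h9]
        exact h10
      rw [h7]
      refine Function.Bijective.comp h₃ (Function.Bijective.comp ?_ hu)
      exact ((asIso (σ.app N)).symm.homToEquiv).bijective
    exact (Function.Bijective.of_comp_iff _ h₁).mp h6
  have h11 : (fun φ : T' ⊗ gs'.obj M ⟶ gs'.obj L =>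
      ((u ⊗ₘ σ.app M) ≫ μ F' T' (gs'.obj M)) ≫ F'.map φ ≫ τ') =
      (fun t => ((u ⊗ₘ σ.app M) ≫ μ F' T' (gs'.obj M)) ≫ t) ∘
        (fun φ : T' ⊗ gs'.obj M ⟶ gs'.obj L => F'.map φ ≫ τ') := rfl
  rw [h11] at h5
  exact (Function.Bijective.of_comp_iff' ((asIso ((u ⊗ₘ σ.app M) ≫ μ F' T' (gs'.obj M))).symm.homFromEquiv).bijective
    _).mp h5

end Main

end Groth.Agent.Dual.H307.MonBC
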