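import Groth.Agent.Dual.H307.MonBC

/-!
# Base change of universal pairs in monoidal categories, II
-/

set_option autoImplicit false

open CategoryTheory MonoidalCategory Functor.LaxMonoidal Functor.OplaxMonoidal Functor.Monoidal

namespace Groth.Agent.Dual.H307.MonBC

universe v₁ v₂ v₃ v₄ u₁ u₂ u₃ u₄

variable {C : Type u₁} [Category.{v₁} C] [MonoidalCategory C] {D : Type u₂} [Category.{v₂} D] [MonoidalCategory D]
  {C' : Type u₃} [Category.{v₃} C'] [MonoidalCategory C'] {D' : Type u₄} [Category.{v₄} D'] [MonoidalCategory D']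

section

variable {fs : D ⥤ C} {F : C ⥤ D} (adj : fs ⊣ F) [fs.Monoidal] [F.LaxMonoidal] [adj.IsMonoidal]

include adj in
/-- The pairing `F(L ⊗ Mᵛ) ⊗ F M ⟶ F L ⟶ K` is universal at dualizable `Q`. -/
theorem univAt_push_dual (M Md : C) [ExactPairing M Md] {L : C} {K : D} (τ : F.obj L ⟶ K) (Q Qd : D)
    [ExactPairing Q Qd] (hτ : Function.Bijective (fun φ : fs.obj Q ⊗ M ⟶ L => F.map φ ≫ τ)) :
    UnivAt (mapP F (p₀ M Md L) ≫ τ) Q :=
  univAt_push adj (p₀ M Md L) τ Q (univAt_of_isIso M Md _ _) (isIso_proj adj Q Qd M) hτ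

/-- The morphism `F(L ⊗ Mᵛ) ⟶ K ⊗ (F M)ᵛ`. -/
def dualMap (F : C ⥤ D) [F.LaxMonoidal] (M Md : C) [ExactPairing M Md] (FMd : D) [ExactPairing (F.obj M) FMd]
    {L : C} {K : D} (τ : F.obj L ⟶ K) : F.obj (L ⊗ Md) ⟶ K ⊗ FMd :=
  sharp (F.obj M) FMd (mapP F (p₀ M Md L) ≫ τ)

include adj in
/-- `Hom(Q, dualMap)` is bijective for `Q` dualizable. -/
theorem bijective_dualMap (M Md : C) [ExactPairing M Md] (FMd : D) [ExactPairing (F.obj M) FMd] {L : C} {K : D}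
    (τ : F.obj L ⟶ K) (Q Qd : D)
    [ExactPairing Q Qd] (hτ : Function.Bijective (fun φ : fs.obj Q ⊗ M ⟶ L => F.map φ ≫ τ)) :
    Function.Bijective (fun x : Q ⟶ F.obj (L ⊗ Md) => x ≫ dualMap F M Md FMd τ) :=
  (univAt_iff (F.obj M) FMd _ Q).1 (univAt_push_dual adj M Md τ Q Qd hτ)

end

section

variable {F : C ⥤ D} [F.LaxMonoidal] {fs' : D' ⥤ C'} {F' : C' ⥤ D'} (adj' : fs' ⊣ F') [fs'.Monoidal]
  [F'.LaxMonoidal] [adj'.IsMonoidal] {gs : D ⥤ D'} {gs' : C ⥤ C'} [gs.Monoidal] [gs'.Monoidal]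
  (σ : F ⋙ gs ⟶ gs' ⋙ F') [NatTrans.IsMonoidal σ]

omit [fs'.Monoidal] [adj'.IsMonoidal] in
lemma unit_tensor_comp (Q : D') {A : D'} {B : C'} (s : A ⟶ F'.obj B) :
    (adj'.unit.app Q ⊗ₘ s) ≫ μ F' (fs'.obj Q) B = Q ◁ s ≫ proj adj' Q B := by
  rw [proj, MonoidalCategory.tensorHom_def', Category.assoc]
  rfl

include adj' in
/-- **Base change of the universal property**, tested on `fs' Q ⊗ gs' M`, `Q` and `M` dualizable. -/
theorem bijective_bc_gen (M Md : C) [ExactPairing M Md] (FMd : D) [ExactPairing (F.obj M) FMd] {L : C} {K : D}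
    (τ : F.obj L ⟶ K) (hd : IsIso (dualMap F M Md FMd τ)) (Q Qd : D') [ExactPairing Q Qd]
    (hN : IsIso (σ.app (L ⊗ Md))) (hM : IsIso (σ.app M)) (τ' : F'.obj (gs'.obj L) ⟶ gs.obj K)
    (hτ' : σ.app L ≫ τ' = gs.map τ) :
    Function.Bijective (fun φ : fs'.obj Q ⊗ gs'.obj M ⟶ gs'.obj L => F'.map φ ≫ τ') := by
  have hd' : IsIso (sharp (F.obj M) FMd (mapP F (p₀ M Md L) ≫ τ)) := hd
  have h₄ : IsIso ((adj'.unit.app Q ⊗ₘ σ.app M) ≫ μ F' (fs'.obj Q) (gs'.obj M)) := by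
    rw [unit_tensor_comp adj' Q (B := gs'.obj M) (σ.app M)]
    have h1 : IsIso (proj adj' Q (gs'.obj M)) := isIso_proj adj' Q Qd (gs'.obj M)
    have h2 : IsIso (Q ◁ σ.app M) := inferInstance
    exact IsIso.comp_isIso' h2 h1
  have hu : Function.Bijective (fun ψ : fs'.obj Q ⟶ gs'.obj (L ⊗ Md) => adj'.unit.app Q ≫ F'.map ψ) := by
    have h1 : (fun ψ : fs'.obj Q ⟶ gs'.obj (L ⊗ Md) => adj'.unit.app Q ≫ F'.map ψ) =
        adj'.homEquiv Q (gs'.obj (L ⊗ Md)) := by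
      funext ψ
      rw [Adjunction.homEquiv_unit]
    rw [h1]
    exact Equiv.bijective _
  exact bijective_bc σ (p₀ M Md L) τ (adj'.unit.app Q) τ' hτ' (univAt_mapP gs' M Md _ _) hu hN
    (univAt_mapP gs (F.obj M) FMd (mapP F (p₀ M Md L) ≫ τ) Q) h₄

end

end Groth.Agent.Dual.H307.MonBC
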